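/-
Coprime elementary abelian operator groups with unique invariant Sylow subgroups and fixed points
of odd order: the basic lemmas.
-/
import Cfsg.Agent.H59.AbCent2
import Cfsg.Agent.H20.Fpf3
import Cfsg.Agent.H50.PGroup
import Cfsg.Agent.H50.CommCalc

set_option autoImplicit false
set_option linter.unusedSectionVars false

namespace Cfsg.Agent.PET

open Subgroup Cfsg.Agent.H49 Cfsg.Agent.H45 Cfsg.Agent.H59
open scoped commutatorElement

universe u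

variable {X : Type u} [Group X] [Finite X] {r p q : ℕ} {π : Set ℕ}
  {A B B' G H K L N P Q R E U V W : Subgroup X}

/-- `A` is an elementary abelian `r`-group (`r` odd) acting coprimely on `G` with unique invariant
Sylow subgroups and fixed points of odd order. -/
structure Hy (r : ℕ) (A G : Subgroup X) : Prop where
  prime : r.Prime
  ne2 : r ≠ 2
  elem : IsElementaryAbelian r A
  norm : A ≤ 𝒩(G)
  pi : IsPi {r}ᶜ G
  syl : ∀ p : ℕ, p.Prime → ∃ P, Sy A G p P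
  odd : IsPi {2}ᶜ (G ⊓ 𝒞(A))

theorem comm_le_of_le_sup (hH : H ≤ L ⊔ K) (hK : K ≤ 𝒩(L)) (hc : K ≤ 𝒞(B)) (hB : B ≤ 𝒩(L)) :
    ⁅H, B⁆ ≤ L :=
  (commutator_mono hH le_rfl).trans (H50.commutator_sup_left_le hB le_normalizer hK
    (commutator_le_left_of_norm hB) ((commutator_eq_bot_iff.2 hc).le.trans bot_le))

theorem iv_bot (A G : Subgroup X) (π : Set ℕ) : Iv A G π ⊥ := ⟨bot_le, le_norm_bot A, isPi_bot π⟩

theorem iv_of_le (h : Iv A G π U) (hV : V ≤ U) (hn : A ≤ 𝒩(V)) : Iv A G π V :=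
  ⟨hV.trans h.le, hn, h.pi.of_le hV⟩

theorem iv_res (h : Iv A G π U) (hU : U ≤ H) : Iv A H π U := ⟨hU, h.norm, h.pi⟩

theorem iv_quo (h : Iv A G π U) (N : Subgroup X) : Iv (quo A N) (quo G N) π (quo U N) :=
  ⟨quo_mono N h.le, quo_norm N h.norm, h.pi.quo N⟩

theorem iv_core (hH : H ≤ G) (hn : A ≤ 𝒩(H)) (π : Set ℕ) : Iv A G π (piCoreOf π H) :=
  ⟨(piCoreOf_le π H).trans hH, norm_piCoreOf π hn, piCoreOf_pi π H⟩

theorem iv_comm (h : Iv A G π U) (hV : V ≤ 𝒩(U)) (hn : A ≤ 𝒩(V)) : Iv A G π ⁅U, V⁆ :=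
  iv_of_le h (commutator_le_left_of_norm hV) (norm_commutator h.norm hn)

theorem disj (hpq : p ≠ q) (hU : IsPi {p} U) (hV : IsPi {q} V) : U ⊓ V = ⊥ :=
  hU.inf_eq_bot (hV.compl_singleton_of_ne hpq.symm)

theorem copr (hpq : p ≠ q) (hU : IsPi {p} U) (hV : IsPi {q} V) :
    (Nat.card U).Coprime (Nat.card V) := hU.coprime (hV.compl_singleton_of_ne hpq.symm)

theorem psol (hU : IsPi {p} U) : Group.IsSolvable U := solvable_of_nilpotent hU.nilpotent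

theorem elem_quo {n : ℕ} (h : IsElem r n B A) (hB : B ≤ 𝒩(N)) (hd : B ⊓ N = ⊥) :
    IsElem r n (quo B N) (quo A N) := by
  refine ⟨quo_mono N h.le, ⟨abelian_quo h.abelian N, fun y hy => ?_⟩, ?_⟩
  · obtain ⟨x, hx, rfl⟩ := mem_quo.1 hy
    rw [← map_pow, show x ^ r = 1 from Subtype.ext (h.exp hx), map_one]
  · rw [card_quo_of_disjoint hB hd, h.card]

/-- coprime action on a `p`-group is faithful on the commutator quotient -/
theorem cent_of_der (hV : IsPi {p} V) (hn : K ≤ 𝒩(V)) (hc : (Nat.card K).Coprime (Nat.card V))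
    (h : ⁅V, K⁆ ≤ ⁅V, V⁆) : K ≤ 𝒞(V) := by
  by_cases h0 : V = ⊥
  · rw [h0]; exact le_cent_bot _
  have := Fact.mk (hV.prime h0)
  exact H50.cent_of_commutator_le_frattiniOf hn hc
    (h.trans (H50.der_le_frattiniOf (hV.isPGroup (hV.prime h0))))

namespace Hy

variable (h : Hy r A G)
include h

theorem api : IsPi {r} A := elem_pi h.prime h.elem

theorem cop (hB : B ≤ A) (hK : K ≤ G) : (Nat.card B).Coprime (Nat.card K) :=
  (h.api.of_le hB).coprime (h.pi.of_le hK)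

theorem solA (hB : B ≤ A) : Group.IsSolvable B := psol (h.api.of_le hB)

theorem normB (hB : B ≤ A) : A ≤ 𝒩(B) := elem_norm_of_le h.elem hB

theorem normC (hB : B ≤ A) : A ≤ 𝒩(𝒞(B)) := elem_norm_cent h.elem hB

theorem sy_inf (hP : Sy A G p P) (hK : K ≤ G) (hn : A ≤ 𝒩(K)) : IsSylowOf p (P ⊓ K) K := by
  obtain ⟨T, h1, h2, -⟩ := inv_sylow_ge h.prime hP.prime h.api (h.pi.of_le hK) hn (isPi_bot {p})
    bot_le (le_norm_bot A)
  rwa [← h1.eq_of_le (le_inf (hP.max T ⟨h1.le.trans hK, h2, h1.pi⟩) h1.le) inf_le_right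
    (hP.pi.inf_left K)]

theorem sy_sub (hP : Sy A G p P) (hK : K ≤ G) (hn : A ≤ 𝒩(K)) : Sy A K p (P ⊓ K) :=
  ⟨⟨inf_le_right, norm_inf hP.norm hn, hP.pi.inf_left K⟩, hP.prime, h.sy_inf hP hK hn,
    fun U hU => le_inf (hP.max U ⟨hU.le.trans hK, hU.norm, hU.pi⟩) hU.le⟩

theorem sy_res (hP : Sy A G p P) (hK : K ≤ G) (hn : A ≤ 𝒩(K)) (hPK : P ≤ K) : Sy A K p P := by
  have := h.sy_sub hP hK hn
  rwa [inf_eq_left.2 hPK] at this

theorem sub (hK : K ≤ G) (hn : A ≤ 𝒩(K)) : Hy r A K :=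
  ⟨h.prime, h.ne2, h.elem, hn, h.pi.of_le hK,
    fun p hp => (h.syl p hp).elim fun _ hP => ⟨_, h.sy_sub hP hK hn⟩,
    h.odd.of_le (inf_le_inf_right _ hK)⟩

theorem sy_quo (hP : Sy A G p P) (hN : N ≤ G) (hG : G ≤ 𝒩(N)) (hA : A ≤ 𝒩(N)) :
    Sy (quo A N) (quo G N) p (quo P N) := by
  refine ⟨iv_quo hP.toIv N, hP.prime, hP.syl.quo hG, fun U hU => ?_⟩
  have h1 : quoPre N U ≤ G := (quoPre_le_iff hN hG).2 hU.le
  have h2 := (h.sy_inf hP h1 (norm_quoPre hA hU.norm)).quo (N := N) (quoPre_le_norm U)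
  rw [quo_quoPre] at h2
  rw [← h2.eq_self hU.pi]
  exact quo_mono N inf_le_left

theorem quo_inf_cent (hB : B ≤ A) (hK : A ≤ 𝒩(K)) (hN : N ≤ G) (hA : A ≤ 𝒩(N)) :
    quo K N ⊓ 𝒞(quo B N) = quo (K ⊓ 𝒞(B)) N :=
  (coprime_quo_cent (hB.trans hK) (hB.trans hA) (h.cop hB hN) (Or.inl (h.solA hB))).symm

theorem quo (hN : N ≤ G) (hG : G ≤ 𝒩(N)) (hA : A ≤ 𝒩(N)) : Hy r (quo A N) (quo G N) := by
  obtain ⟨n, hn⟩ := exists_isElem_of_elem h.prime h.elem le_rfl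
  refine ⟨h.prime, h.ne2, (elem_quo hn hA (H49.inf_eq_bot_of_coprime (h.cop le_rfl hN))).elem,
    quo_norm N h.norm, h.pi.quo N,
    fun p hp => (h.syl p hp).elim fun _ hP => ⟨_, h.sy_quo hP hN hG hA⟩, ?_⟩
  rw [h.quo_inf_cent le_rfl h.norm hN hA]
  exact h.odd.quo N

theorem elem_quo {n : ℕ} (hB : IsElem r n B A) (hN : N ≤ G) (hA : A ≤ 𝒩(N)) :
    IsElem r n (H49.quo B N) (H49.quo A N) :=
  PET.elem_quo hB (hB.le.trans hA) (H49.inf_eq_bot_of_coprime (h.cop hB.le hN))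

theorem cent_norm_sy (hP : Sy A G p P) : G ⊓ 𝒞(A) ≤ 𝒩(P) := fun _ hc =>
  mem_norm_of_cj_le (hP.max _ ⟨cj_le_of_mem hP.le hc.1, cj_of_cent hc.2 hP.norm, hP.pi.cj _⟩)

/-- a subgroup containing the invariant Sylow subgroups of `K` contains `K` -/
theorem le_of_sy (hK : K ≤ G) (hn : A ≤ 𝒩(K))
    (hL : ∀ p P, p ∣ Nat.card K → Sy A G p P → P ⊓ K ≤ L) : K ≤ L :=
  le_of_sylowOf_le fun p hp hd => (h.syl p hp).elim fun _ hP =>
    ⟨_, h.sy_inf hP hK hn, hL p _ hd hP⟩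

theorem hall_inf (hP : Sy A G p P) (hH : H ≤ G) (hK : IsPiHallOf π K H) (hnK : A ≤ 𝒩(K))
    (hp : p ∈ π) : P ⊓ H ≤ K :=
  (((h.sy_inf hP (hK.le.trans hH) hnK).trans_sylow hK hp).eq_of_le (inf_le_inf_left _ hK.le)
    inf_le_right (hP.pi.inf_left H)).ge.trans inf_le_right

theorem le_hall (hH : H ≤ G) (hK : IsPiHallOf π K H) (hnK : A ≤ 𝒩(K)) (hU : Iv A G π U)
    (hUH : U ≤ H) : U ≤ K :=
  h.le_of_sy hU.le hU.norm fun p _ hd hP => (inf_le_inf_left _ hUH).trans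
    (h.hall_inf hP hH hK hnK (hU.pi p hP.prime hd))

theorem exists_hall (hH : H ≤ G) (hn : A ≤ 𝒩(H)) (hs : Group.IsSolvable H) (π : Set ℕ) :
    ∃ K, IsPiHallOf π K H ∧ A ≤ 𝒩(K) :=
  coprime_hall_exists hn (h.cop le_rfl hH) (h.solA le_rfl) hs π

theorem cent_norm_hall (hH : H ≤ G) (hK : IsPiHallOf π K H) (hnK : A ≤ 𝒩(K)) :
    G ⊓ 𝒞(A) ⊓ 𝒩(H) ≤ 𝒩(K) := fun c hc =>
  have h1 : cj c K ≤ H := cj_le_of_mem_norm hK.le hc.2
  mem_norm_of_cj_le (h.le_hall hH hK hnK ⟨h1.trans hH, cj_of_cent hc.1.2 hnK, hK.pi.cj _⟩ h1)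

/-- the fixed points of `A` in `E` centralize every invariant subgroup of coprime order which
normalizes `E` -/
theorem cent_le (hE : Iv A G π E) (hR : Iv A G πᶜ R) (hn : R ≤ 𝒩(E)) : E ⊓ 𝒞(A) ≤ 𝒞(R) := by
  refine cent_symm (h.le_of_sy hR.le hR.norm fun p P hd hP => commutator_eq_bot_iff.1
    (le_bot_iff.1 ?_))
  rw [← hE.pi.inf_eq_bot (hP.pi.of_singleton (hR.pi p hP.prime hd))]
  exact le_inf ((commutator_mono inf_le_right inf_le_left).trans (commutator_le_right_of_norm hn))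
    ((commutator_mono inf_le_left le_rfl).trans (commutator_le_left_of_norm
      ((inf_le_inf_right _ hE.le).trans (h.cent_norm_sy hP))))

theorem cent_le' (hpq : p ≠ q) (hE : Iv A G {q} E) (hR : Iv A G {p} R) (hn : R ≤ 𝒩(E)) :
    E ⊓ 𝒞(A) ≤ 𝒞(R) := h.cent_le hE (hR.mono (by simpa using hpq.symm)) hn

theorem two_fpf (hU : Iv A G {2} U) : U ⊓ 𝒞(A) = ⊥ :=
  (hU.pi.inf_left _).eq_bot (h.odd.of_le (inf_le_inf_right _ hU.le))

theorem prod (hB : B ≤ A) (hK : K ≤ G) (hn : A ≤ 𝒩(K)) : IsProd ⁅K, B⁆ (K ⊓ 𝒞(B)) K :=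
  coprime_isProd_comm_cent (hB.trans hn) (h.cop hB hK) (Or.inl (h.solA hB))

theorem comm_comm (hB : B ≤ A) (hK : K ≤ G) (hn : A ≤ 𝒩(K)) : ⁅⁅K, B⁆, B⁆ = ⁅K, B⁆ :=
  coprime_comm_comm (hB.trans hn) (h.cop hB hK) (Or.inl (h.solA hB))

theorem two_comm (hU : Iv A G {2} U) : ⁅U, A⁆ = U :=
  coprime_comm_eq_of_cent hU.norm (h.cop le_rfl hU.le) (Or.inl (h.solA le_rfl)) (h.two_fpf hU)

theorem comm_eq (hB : B ≤ A) (hK : K ≤ G) (hn : A ≤ 𝒩(K)) (hc : K ⊓ 𝒞(B) ≤ 𝒞(A)) :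
    ⁅K, A⁆ = ⁅K, B⁆ :=
  le_antisymm (comm_le_of_le_sup (h.prod hB hK hn).sup_eq.ge
    (inf_le_left.trans (le_norm_commutator_left K B)) hc (norm_commutator hn (h.normB hB)))
    (commutator_mono le_rfl hB)

theorem ne_r (hU : Iv A G {p} U) (h0 : U ≠ ⊥) : p ≠ r := hU.pi.mem_of_ne_bot h0 (h.pi.of_le hU.le)

theorem cl0 (hB : IsElem r 1 B A) (hpq : p ≠ q) (hR : Iv A G {p} R) (hV : Iv A G {q} V)
    (hn : R ≤ 𝒩(V)) (h0 : V ⊓ 𝒞(B) = ⊥) : ⁅R, B⁆ ≤ 𝒞(V) := by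
  by_cases hV0 : V = ⊥
  · rw [hV0]; exact le_cent_bot _
  have hq := hV.pi.prime hV0
  have hBR := hB.le.trans hR.norm
  have hBV := hB.le.trans hV.norm
  have hBp := hB.prime_card h.prime
  have hB' : IsPi {q}ᶜ B := (hB.pi h.prime).compl_singleton_of_ne (h.ne_r hV hV0).symm
  by_cases h2 : p = 2
  · subst h2
    have h1 : R ≤ (R ⊓ 𝒞(V)) ⊔ (R ⊓ 𝒞(B)) := by
      refine le_of_hyperplanes h.prime h.elem (ne_bot_mono hB.le (ne_bot_of_prime_card hBp))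
        (h.pi.of_le hR.le) hR.norm fun D hD hi => ?_
      rcases inf_eq_bot_or_le_of_prime_card hBp D with e | e
      · have hA : D ⊔ B = A := by
          refine eq_of_le_of_card_eq (sup_le hD hB.le) ?_
          rw [card_sup_of_disjoint (Or.inl (hD.trans (h.normB hB.le))) (inf_comm B D ▸ e),
            ← card_mul_relIndex hD, hi, hB.card1]
        have hK : Iv A G {2} (R ⊓ 𝒞(D)) := hR.inf (h.normC hD)
        refine le_trans (le_inf inf_le_left (frob_cent_of_cent_eq_bot (hB.le.trans hK.norm)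
          (semiregular_of_prime_card hBp ?_) (sup_le (inf_le_left.trans hn) hBV) hV.sol
          (coprime_sup_right (Or.inr (hB.le.trans hK.norm)) (copr hpq.symm hV.pi hK.pi)
            (hV.pi.coprime hB')) h0)) le_sup_left
        rw [inf_assoc, ← cent_sup, hA, h.two_fpf hR]
      · exact (inf_le_inf_left _ (cent_anti e)).trans le_sup_right
    exact (comm_le_of_le_sup h1 (inf_le_left.trans (norm_inf le_normalizer (norm_cent hn)))
      inf_le_right (norm_inf hBR (norm_cent hBV))).trans inf_le_right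
  · refine H20.comm_cent_pgroup hq _ rfl hR.sol ?_ hBR (h.cop hB.le hR.le).symm hBp hV.pi
      (sup_le hn hBV) ((isPi_compl_singleton hq).1
        ((hR.pi.compl_singleton_of_ne hpq).sup hB' (Or.inr hBR))) h0
    exact Nat.coprime_two_right.1 ((isPi_compl_singleton_iff_coprime Nat.prime_two).1
      ((hR.pi.compl_singleton_of_ne h2).sup ((hB.pi h.prime).compl_singleton_of_ne h.ne2)
        (Or.inr hBR)))

theorem cl_ab (hB : IsElem r 1 B A) (hpq : p ≠ q) (hR : Iv A G {p} R) (hE : Iv A G {q} E)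
    (hn : R ≤ 𝒩(E)) (hab : IsMulCommutative E) (h0 : E ⊓ 𝒞(B) ≤ 𝒞(R)) : ⁅R, B⁆ ≤ 𝒞(E) := by
  have hdp := coprime_abelian_dp hab hn (copr hpq hR.pi hE.pi)
  have hV := iv_comm hE hn hR.norm
  have hle : ⁅E, R⁆ ≤ E := commutator_le_left_of_norm hn
  have h1 := h.cl0 hB hpq hR hV (le_norm_commutator_right E R) (le_bot_iff.1 (hdp.2.1 ▸ le_inf
    (le_inf (inf_le_left.trans hle) ((inf_le_inf_right _ hle).trans h0)) inf_le_left))
  rw [← hdp.1, cent_sup]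
  exact le_inf ((commutator_le_left_of_norm (hB.le.trans hR.norm)).trans (cent_symm inf_le_right)) h1

/-- if the fixed points of the line `B` in `E` are fixed by `R`, then `[R, B]` centralizes `E` -/
theorem cl (hB : IsElem r 1 B A) (hpq : p ≠ q) (hR : Iv A G {p} R) (hE : Iv A G {q} E)
    (hn : R ≤ 𝒩(E)) (h0 : E ⊓ 𝒞(B) ≤ 𝒞(R)) : ⁅R, B⁆ ≤ 𝒞(E) := by
  have hAN : A ≤ 𝒩(⁅E, E⁆) := norm_commutator hE.norm hE.norm
  have hRN : R ≤ 𝒩(⁅E, E⁆) := norm_commutator hn hn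
  have hle : ⁅R, B⁆ ≤ R := commutator_le_left_of_norm (hB.le.trans hR.norm)
  have h1 := h.sub (sup_le hE.le hR.le) (norm_sup hE.norm hR.norm)
  have hN : ⁅E, E⁆ ≤ E ⊔ R := der_le.trans le_sup_left
  have h2 := (h1.quo hN (sup_le norm_der hRN) hAN).cl_ab (h1.elem_quo hB hN hAN) hpq
    (iv_quo (iv_res hR le_sup_right) _) (iv_quo (iv_res hE le_sup_left) _) (quo_norm _ hn)
    ((quo_abelian_iff norm_der).2 le_rfl) (by
      rw [h1.quo_inf_cent hB.le hE.norm hN hAN]; exact quo_cent _ h0)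
  rw [← quo_commutator hRN (hB.le.trans hAN), quo_cent_iff (hle.trans hRN) norm_der,
    commutator_comm] at h2
  exact cent_of_der hE.pi (hle.trans hn) (copr hpq (hR.pi.of_le hle) hE.pi) h2

end Hy

end Cfsg.Agent.PET
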