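/-
Operator groups of rank at most two: lines, the subgroups `[C_U(B), A]`.
-/
import Cfsg.Agent.PET.Basic

set_option autoImplicit false
set_option linter.unusedSectionVars false

namespace Cfsg.Agent.PET

open Subgroup Cfsg.Agent.H49 Cfsg.Agent.H45 Cfsg.Agent.H59
open scoped commutatorElement

universe u

variable {X : Type u} [Group X] [Finite X] {r p q : ℕ} {π : Set ℕ}
  {A B B' G H K L N P Q R E U V W : Subgroup X}

theorem eq_bot_of_cent (hs : Group.IsSolvable H) (h0 : piCoreOf {q} H = ⊥) (hR : R ≤ H)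
    (hq : IsPi {q} R) (h : ∀ p : ℕ, p.Prime → p ≠ q → R ≤ 𝒞(piCoreOf {p} H)) : R = ⊥ := by
  have h1 : R ≤ fittingOf H := (le_inf hR (H50.cent_fittingOf_of_forall fun p hp => by
    by_cases e : p = q
    · rw [e, h0]; exact le_cent_bot _
    · exact h p hp e)).trans (cent_fittingOf_le hs)
  rw [eq_bot_iff, ← h0, ← pcore_fittingOf]
  exact nilpotent_le_piCoreOf (fittingOf_nil H) h1 hq

theorem le_core_of_quo (hs : Group.IsSolvable H) (hR : R ≤ H) (hq : IsPi {q} R)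
    (h : ∀ p : ℕ, p.Prime → p ≠ q →
      quo R (piCoreOf {q} H) ≤ 𝒞(piCoreOf {p} (quo H (piCoreOf {q} H)))) : R ≤ piCoreOf {q} H :=
  (quo_eq_bot_iff (hR.trans (le_norm_piCoreOf _ _))).1 (eq_bot_of_cent (solvable_quo hs _)
    (piCoreOf_quo_piCoreOf _ _) (quo_mono _ hR) (hq.quo _) h)

theorem core_cent' (hpq : p ≠ q) (hU : U ≤ piCoreOf {p} H) (hV : V ≤ piCoreOf {q} H) : U ≤ 𝒞(V) :=
  hU.trans ((MC.core_cent hpq H).trans (cent_anti hV))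

/-- if `B` has the same fixed points as `A` then `[Q, A] ≤ O_q(G)` -/
theorem Hy.r1 (h : Hy r A G) (hs : Group.IsSolvable G) (hB : IsElem r 1 B A)
    (hc : G ⊓ 𝒞(B) ≤ 𝒞(A)) (hQ : Iv A G {q} Q) : ⁅Q, A⁆ ≤ piCoreOf {q} G := by
  rw [h.comm_eq hB.le hQ.le hQ.norm ((inf_le_inf_right _ hQ.le).trans hc)]
  have hle : ⁅Q, B⁆ ≤ Q := commutator_le_left_of_norm (hB.le.trans hQ.norm)
  refine le_core_of_quo hs (hle.trans hQ.le) (hQ.pi.of_le hle) fun p _ hpq => ?_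
  have hN := piCoreOf_le {q} G
  have hG := le_norm_piCoreOf {q} G
  have hA := norm_piCoreOf {q} h.norm
  have h1 := h.quo hN hG hA
  have hE := iv_core le_rfl h1.norm {p}
  have hn := (iv_quo hQ (piCoreOf {q} G)).le.trans (le_norm_piCoreOf {p} _)
  rw [quo_commutator (hQ.le.trans hG) (hB.le.trans hA)]
  refine h1.cl (h.elem_quo hB hN hA) hpq.symm (iv_quo hQ _) hE hn
    (le_trans (le_inf inf_le_left ?_) (h1.cent_le' hpq.symm hE (iv_quo hQ _) hn))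
  refine (inf_le_inf_right _ hE.le).trans ?_
  rw [h.quo_inf_cent hB.le h.norm hN hA]
  exact quo_cent _ hc

/-- `U^B = [C_U(B), A]` -/
abbrev up (A U B : Subgroup X) : Subgroup X := ⁅U ⊓ 𝒞(B), A⁆

namespace Hy

variable (h : Hy r A G)
include h

theorem up_le (hB : B ≤ A) (hn : A ≤ 𝒩(U)) : up A U B ≤ U ⊓ 𝒞(B) :=
  commutator_le_left_of_norm (norm_inf hn (h.normC hB))

theorem up_iv (hB : B ≤ A) (hU : Iv A G π U) : Iv A G π (up A U B) :=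
  iv_comm (hU.inf (h.normC hB)) (hU.inf (h.normC hB)).norm le_normalizer

theorem up_comm (hB : B ≤ A) (hU : Iv A G π U) : ⁅up A U B, A⁆ = up A U B :=
  h.comm_comm le_rfl (inf_le_left.trans hU.le) (hU.inf (h.normC hB)).norm

theorem le_up_sup (hB : B ≤ A) (hU : U ≤ G) (hn : A ≤ 𝒩(U)) :
    U ⊓ 𝒞(B) ≤ up A U B ⊔ (U ⊓ 𝒞(A)) :=
  (h.prod le_rfl (inf_le_left.trans hU) (norm_inf hn (h.normC hB))).sup_eq.ge.trans
    (sup_le_sup_left (inf_le_inf_right _ inf_le_left) _)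

omit h in
theorem up_mono (hU : U ≤ V) : up A U B ≤ up A V B :=
  commutator_mono (inf_le_inf_right _ hU) le_rfl

omit h in
theorem le_up (hU : U ≤ V) (hc : U ≤ 𝒞(B)) (e : ⁅U, A⁆ = U) : U ≤ up A V B :=
  e.ge.trans (commutator_mono (le_inf hU hc) le_rfl)

theorem norm_up (hB : B ≤ A) (hK : K ≤ 𝒩(U)) (hc : K ≤ 𝒞(A)) : K ≤ 𝒩(up A U B) :=
  norm_commutator (norm_inf hK (norm_cent (norm_of_cent (hc.trans (cent_anti hB)))))
    (norm_of_cent hc)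

theorem two_up (hB : B ≤ A) (hU : Iv A G {2} U) : up A U B = U ⊓ 𝒞(B) :=
  h.two_comm (hU.inf (h.normC hB))

end Hy

/-- rank two, with solvable centralizers of lines -/
structure H2 (r : ℕ) (A G : Subgroup X) : Prop extends Hy r A G where
  rk : IsElem r 2 A ⊤
  solC : ∀ B, IsElem r 1 B A → Group.IsSolvable ↥(G ⊓ 𝒞(B))

namespace H2

variable (h : H2 r A G)
include h

theorem sub (hK : K ≤ G) (hn : A ≤ 𝒩(K)) : H2 r A K :=
  ⟨h.toHy.sub hK hn, h.rk, fun B hB => solvable_of_le (h.solC B hB) (inf_le_inf_right _ hK)⟩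

theorem quo (hs : Group.IsSolvable G) (hN : N ≤ G) (hG : G ≤ 𝒩(N)) (hA : A ≤ 𝒩(N)) :
    H2 r (quo A N) (quo G N) :=
  ⟨h.toHy.quo hN hG hA, (h.elem_quo h.rk.self hN hA).top,
    fun _ _ => solvable_of_le (solvable_quo hs N) inf_le_left⟩

theorem sup_eq (hB : IsElem r 1 B A) (hB' : IsElem r 1 B' A) (hne : B ≠ B') : B ⊔ B' = A :=
  (h.rk.isDp h.prime hB hB' hne).1

theorem cent_cent (hB : IsElem r 1 B A) (hB' : IsElem r 1 B' A) (hne : B ≠ B') :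
    K ⊓ 𝒞(B) ⊓ 𝒞(B') ≤ 𝒞(A) := by
  rw [inf_assoc, ← cent_sup, h.sup_eq hB hB' hne]; exact inf_le_right

theorem gen (hK : K ≤ G) (hn : A ≤ 𝒩(K)) (hL : ∀ B, IsElem r 1 B A → K ⊓ 𝒞(B) ≤ L) : K ≤ L :=
  le_of_elements h.prime h.elem h.rk.card.ge (h.pi.of_le hK) hn fun b hb b1 => by
    rw [← cent_zpowers]; exact hL _ (isElem_zpowers' h.prime hb (h.rk.exp hb) b1)

theorem exists_ne (hB : IsElem r 1 B A) : ∃ B', IsElem r 1 B' A ∧ B' ≠ B :=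
  h.rk.exists_line_ne h.prime hB

theorem exists_line : ∃ B, IsElem r 1 B A := h.rk.sub h.prime (by norm_num)

theorem exists_two (hB : IsElem r 1 B A) :
    ∃ B₁ B₂, IsElem r 1 B₁ A ∧ IsElem r 1 B₂ A ∧ B₁ ≠ B ∧ B₂ ≠ B ∧ B₁ ≠ B₂ := by
  obtain ⟨B₁, h1, h2⟩ := h.exists_ne hB
  obtain ⟨x, hx, x1, -, ex⟩ := hB.exists_gen h.prime
  obtain ⟨y, hy, y1, -, ey⟩ := h1.exists_gen h.prime
  have hd := hB.inf_eq_bot h1 h.prime h2.symm
  have n1 : x * y ∉ B := fun e => y1 (mem_bot.1 (hd ▸ ⟨(mul_mem_cancel_left hx).1 e, hy⟩))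
  have n2 : x * y ∉ B₁ := fun e => x1 (mem_bot.1 (hd ▸ ⟨hx, (mul_mem_cancel_right hy).1 e⟩))
  have hm := mul_mem (hB.le hx) (h1.le hy)
  exact ⟨B₁, _, h1, isElem_zpowers' h.prime hm (h.rk.exp hm) fun e => n1 (e ▸ one_mem _), h2,
    fun e => n1 (e ▸ mem_zpowers _), fun e => n2 (e ▸ mem_zpowers _)⟩

theorem comm_eq' (hB : IsElem r 1 B A) (hB' : IsElem r 1 B' A) (hne : B ≠ B') (hK : K ≤ G)
    (hn : A ≤ 𝒩(K)) (hc : K ≤ 𝒞(B)) : ⁅K, A⁆ = ⁅K, B'⁆ :=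
  h.comm_eq hB'.le hK hn ((inf_le_inf_right _ (le_inf le_rfl hc)).trans (h.cent_cent hB hB' hne))

theorem up_le_core (hB : IsElem r 1 B A) (hU : Iv A G {p} U) :
    up A U B ≤ piCoreOf {p} (G ⊓ 𝒞(B)) := by
  obtain ⟨B', h1, h2⟩ := h.exists_ne hB
  exact (h.toHy.sub inf_le_left (norm_inf h.norm (h.normC hB.le))).r1 (h.solC B hB) h1
    (h.cent_cent hB h1 h2.symm) (iv_res (hU.inf (h.normC hB.le)) (inf_le_inf_right _ hU.le))

theorem com (hB : IsElem r 1 B A) (hpq : p ≠ q) (hU : Iv A G {p} U) (hV : Iv A G {q} V) :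
    up A U B ≤ 𝒞(up A V B) := core_cent' hpq (h.up_le_core hB hU) (h.up_le_core hB hV)

/-- a subgroup of `U^B` normalizing `V` centralizes `C_V(B)` -/
theorem com' (hB : IsElem r 1 B A) (hpq : p ≠ q) (hU : Iv A G {p} U) (hV : Iv A G {q} V)
    (hW : W ≤ up A U B) (hn : U ≤ 𝒩(V)) : W ≤ 𝒞(V ⊓ 𝒞(B)) := by
  refine hW.trans (le_trans ?_ (cent_anti (h.le_up_sup hB.le hV.le hV.norm)))
  rw [cent_sup]
  exact le_inf (h.com hB hpq hU hV) ((h.up_le hB.le hU.norm).trans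
    (inf_le_left.trans (cent_symm (h.cent_le' hpq hV hU hn))))

theorem gen_up (hK : K ≤ G) (hn : A ≤ 𝒩(K)) (hL : ∀ B, IsElem r 1 B A → up A K B ≤ L) :
    ⁅K, A⁆ ≤ L := by
  have hY : (K ⊓ 𝒞(A)) ⊔ A ≤ 𝒩(coreIn L ((K ⊓ 𝒞(A)) ⊔ A)) := le_norm_coreIn _ _
  refine (comm_le_of_le_sup (h.gen hK hn fun B hB => (h.le_up_sup hB.le hK hn).trans
    (sup_le_sup_right (le_coreIn (hL B hB) (sup_le (h.norm_up hB.le
      (inf_le_left.trans le_normalizer) inf_le_right) (le_norm_commutator_right _ _))) _))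
    (le_sup_left.trans hY) inf_le_right (le_sup_right.trans hY)).trans (coreIn_le _ _)

theorem exists_up (hK : K ≤ G) (hn : A ≤ 𝒩(K)) (hL : ¬ ⁅K, A⁆ ≤ L) :
    ∃ B, IsElem r 1 B A ∧ ¬ up A K B ≤ L :=
  by_contra fun e => hL (h.gen_up hK hn fun B hB => by_contra fun e' => e ⟨B, hB, e'⟩)

theorem free (hB : IsElem r 1 B A) (hB' : IsElem r 1 B' A) (hne : B ≠ B') (hpq : p ≠ q)
    (hW : Iv A G {p} W) (hE : Iv A G {q} E) (hn : W ≤ 𝒩(E)) (hc : W ≤ 𝒞(B)) (e : ⁅W, A⁆ = W)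
    (h0 : up A E B' ≤ 𝒞(W)) : W ≤ 𝒞(E) := by
  rw [← e, h.comm_eq' hB hB' hne hW.le hW.norm hc]
  exact h.cl hB' hpq hW hE hn ((h.le_up_sup hB'.le hE.le hE.norm).trans
    (sup_le h0 (h.cent_le' hpq hE hW hn)))

/-- `[R, B]` centralizes `E` when `E^B = 1` -/
theorem cl_up (hB : IsElem r 1 B A) (hpq : p ≠ q) (hR : Iv A G {p} R) (hE : Iv A G {q} E)
    (hn : R ≤ 𝒩(E)) (h0 : up A E B = ⊥) : ⁅R, B⁆ ≤ 𝒞(E) :=
  h.cl hB hpq hR hE hn ((h.le_up_sup hB.le hE.le hE.norm).trans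
    (sup_le (h0.le.trans bot_le) (h.cent_le' hpq hE hR hn)))

end H2

end Cfsg.Agent.PET
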