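/-
Rank two: if `S = [S, A]` normalizes `Q` and `S Q` normalizes `V`, then `[Q, S]` centralizes `V`.
-/
import Cfsg.Agent.PET.Line

set_option autoImplicit false
set_option linter.unusedSectionVars false

namespace Cfsg.Agent.PET

open Subgroup Cfsg.Agent.H49 Cfsg.Agent.H45 Cfsg.Agent.H59
open scoped commutatorElement

universe u

variable {X : Type u} [Group X] [Finite X] {r p q s : ℕ}
  {A B B' G K Q S V W Y Z : Subgroup X}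

theorem norm_of_comm_le (hK : K ≤ Q) (h : ⁅Q, Y⁆ ≤ K) : Y ≤ 𝒩(K) :=
  le_norm_iff.2 fun y hy k hk => by
    rw [show y * k * y⁻¹ = ⁅k, y⁆⁻¹ * k by simp only [commutatorElement_def]; group]
    exact mul_mem (inv_mem (h (commutator_mem_commutator (hK hk) hy))) hk

theorem comm_comm_le (hK : K ≤ Q) (hQ : Q ≤ 𝒩(K)) (h : ⁅Q, B⁆ ≤ K) (h1 : S ≤ 𝒩(Q))
    (h2 : S ≤ 𝒩(K)) : ⁅Q, ⁅S, B⁆⁆ ≤ K :=
  have h3 : ⁅S, B⁆ ≤ quoPre K 𝒞(quo Q K) :=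
    (commutator_mono le_rfl (le_quoPre_cent hQ (norm_of_comm_le hK h) h)).trans
      (commutator_le_right_of_norm (norm_quoPre h2 (norm_cent (quo_norm K h1))))
  comm_le_of_le hQ (h3.trans (quoPre_le_norm _)) h3

theorem comm_sup_le (hK : K ≤ Q) (hQ : Q ≤ 𝒩(K)) (h : ⁅Q, B⁆ ≤ K) (h' : ⁅Q, B'⁆ ≤ K) :
    ⁅Q, B ⊔ B'⁆ ≤ K :=
  H50.commutator_sup_right_le hQ (norm_of_comm_le hK h) (norm_of_comm_le hK h') h h'

/-- the configuration of the lemma -/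
structure TC (r : ℕ) (A G B S Q V : Subgroup X) (s q p : ℕ) : Prop extends H2 r A G where
  hB : IsElem r 1 B A
  sq : s ≠ q
  qp : q ≠ p
  hS : Iv A G {s} S
  hQ : Iv A G {q} Q
  hV : Iv A G {p} V
  SB : S ≤ 𝒞(B)
  SA : ⁅S, A⁆ = S
  SQ : S ≤ 𝒩(Q)
  SV : S ≤ 𝒩(V)
  QV : Q ≤ 𝒩(V)
  ab : IsMulCommutative V

namespace TC

variable (h : TC r A G B S Q V s q p)
include h

theorem QB : Q ⊓ 𝒞(B) ≤ 𝒞(S) := by
  refine commutator_eq_bot_iff.1 (le_bot_iff.1 ?_)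
  rw [← disj h.sq (piCoreOf_pi {s} (G ⊓ 𝒞(B))) h.hQ.pi]
  exact le_inf ((commutator_mono le_rfl ((Hy.le_up le_rfl h.SB h.SA).trans
    (h.up_le_core h.hB h.hS))).trans (commutator_le_right_of_norm
      ((inf_le_inf_right _ h.hQ.le).trans (le_norm_piCoreOf _ _))))
    ((commutator_mono inf_le_left le_rfl).trans (commutator_le_left_of_norm h.SQ))

theorem key (e : ⁅Q, S⁆ = Q) (hB' : IsElem r 1 B' A) (hK : K ≤ Q) (hQ : Q ≤ 𝒩(K)) (hS : S ≤ 𝒩(K))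
    (hc : ⁅Q, B'⁆ ≤ K) : Q ≤ K := by
  by_cases hb : B = B'
  · subst hb
    exact e.ge.trans ((comm_le_of_le_sup (h.prod hB'.le h.hQ.le h.hQ.norm).sup_eq.ge
      (inf_le_left.trans (le_norm_commutator_left Q B)) h.QB
      (norm_commutator h.SQ (norm_of_cent h.SB))).trans hc)
  · have := comm_comm_le hK hQ hc h.SQ hS
    rwa [← h.comm_eq' h.hB hB' hb h.hS.le h.hS.norm h.SB, h.SA, e] at this

theorem cent_comm (hB' : IsElem r 1 B' A) (hZ : Z ≤ Q) (hc : Z ≤ 𝒞(V ⊓ 𝒞(B'))) (hQ : Q ≤ 𝒩(Z))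
    (hA : A ≤ 𝒩(Z)) : ⁅Q, B'⁆ ≤ 𝒞(⁅V, Z⁆) := by
  have hdp := coprime_abelian_dp h.ab (hZ.trans h.QV) (copr h.qp (h.hQ.pi.of_le hZ) h.hV.pi)
  have hle : ⁅V, Z⁆ ≤ V := commutator_le_left_of_norm (hZ.trans h.QV)
  exact h.cl0 hB' h.qp h.hQ (iv_comm h.hV (hZ.trans h.QV) hA) (norm_commutator h.QV hQ)
    (le_bot_iff.1 (hdp.2.1 ▸ le_inf (le_inf (inf_le_left.trans hle)
      ((inf_le_inf_right _ hle).trans (cent_symm hc))) inf_le_left))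

theorem triv (e : ⁅Q, S⁆ = Q) (h0 : Q ⊓ 𝒞(V) = ⊥) (hB' : IsElem r 1 B' A) (hZ : Z ≤ Q)
    (hc : Z ≤ 𝒞(V ⊓ 𝒞(B'))) (hQ : Q ≤ 𝒩(Z)) (hS : S ≤ 𝒩(Z)) (hA : A ≤ 𝒩(Z)) : Z = ⊥ := by
  have hdp := coprime_abelian_dp h.ab (hZ.trans h.QV) (copr h.qp (h.hQ.pi.of_le hZ) h.hV.pi)
  have h1 := h.key e hB' (K := Q ⊓ 𝒞(⁅V, Z⁆)) inf_le_left
    (norm_inf le_normalizer (norm_cent (norm_commutator h.QV hQ)))
    (norm_inf h.SQ (norm_cent (norm_commutator h.SV hS)))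
    (le_inf (commutator_le_left_of_norm (hB'.le.trans h.hQ.norm)) (h.cent_comm hB' hZ hc hQ hA))
  rw [eq_bot_iff, ← h0, ← hdp.1, cent_sup]
  exact le_inf hZ (le_inf (cent_symm inf_le_right) (hZ.trans (h1.trans inf_le_right)))

theorem abel (e : ⁅Q, S⁆ = Q) (h0 : Q ⊓ 𝒞(V) = ⊥)
    (min : ∀ U, U < Q → A ≤ 𝒩(U) → S ≤ 𝒩(U) → U ≤ 𝒞(S)) : Q ≤ 𝒞(Q) := by
  by_contra hn
  have hA := h.hQ.norm
  have hZ : Q ⊓ 𝒞(Q) ≤ 𝒞(S) := min _ (lt_of_le_of_ne inf_le_left fun e' =>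
    hn (e'.ge.trans inf_le_right)) h.hQ.center.norm (norm_inf h.SQ (norm_cent h.SQ))
  have hD : ⁅Q, Q⁆ ≤ 𝒞(S) := min _ (der_lt_of_solvable h.hQ.sol fun e' => hn (e' ▸ bot_le))
    (norm_commutator hA hA) (norm_commutator h.SQ h.SQ)
  have hC : Q ⊓ 𝒞(S) ≤ 𝒞(Q) := by
    have := H50.three_sub (A := S) (B := Q ⊓ 𝒞(S)) (C := Q)
      (by rw [commutator_eq_bot_iff.2 (cent_symm inf_le_right), commutator_bot_left])
      (commutator_eq_bot_iff.2 ((commutator_mono inf_le_left le_rfl).trans hD))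
    rw [e] at this
    exact cent_symm (commutator_eq_bot_iff.1 this)
  have hDZ : ⁅Q, Q⁆ ≤ Q ⊓ 𝒞(Q) := le_inf der_le ((le_inf der_le hD).trans hC)
  have h1 : ∀ B', IsElem r 1 B' A → up A Q B' ⊓ (Q ⊓ 𝒞(Q)) = ⊥ := fun B' hB' =>
    h.triv e h0 hB' (inf_le_right.trans inf_le_left)
      (h.com' hB' h.qp h.hQ h.hV inf_le_left h.QV)
      (norm_of_cent (cent_symm (inf_le_right.trans inf_le_right)))
      (norm_of_cent (cent_symm (inf_le_right.trans hZ)))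
      (norm_inf (h.up_iv hB'.le h.hQ).norm h.hQ.center.norm)
  have h2 : Q ⊓ 𝒞(Q) ≤ 𝒞(A) := commutator_eq_bot_iff.1 (le_bot_iff.1
    (h.gen_up h.hQ.center.le h.hQ.center.norm fun B' hB' => h1 B' hB' ▸ le_inf
      (Hy.up_mono inf_le_left) ((h.up_le hB'.le h.hQ.center.norm).trans inf_le_left)))
  refine hn (h.gen h.hQ.le hA fun B' hB' => cent_symm ?_)
  have hu : up A Q B' ≤ Q := (h.up_le hB'.le hA).trans inf_le_left
  have h3 : Q ⊓ 𝒞(A) ≤ 𝒞(Q) :=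
    (le_inf inf_le_left ((inf_le_inf_left _ (cent_anti h.hB.le)).trans h.QB)).trans hC
  refine (h.prod hB'.le h.hQ.le hA).sup_eq.ge.trans (sup_le (commutator_eq_bot_iff.1
    (H50.three_sub (by rw [commutator_eq_bot_iff.2 (cent_symm inf_le_right), commutator_bot_left])
      (commutator_eq_bot_iff.2 ((commutator_mono inf_le_left le_rfl).trans
        (hDZ.trans (h2.trans (cent_anti hB'.le))))))) ?_)
  refine (h.le_up_sup hB'.le h.hQ.le hA).trans (sup_le (le_trans ?_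
    (cent_anti (h.le_up_sup hB'.le h.hQ.le hA))) (h3.trans (cent_anti inf_le_left)))
  rw [cent_sup]
  exact le_inf (commutator_eq_bot_iff.1 (le_bot_iff.1 (h1 B' hB' ▸ le_inf der_le
    ((der_mono hu).trans hDZ)))) (hu.trans (cent_symm h3))

theorem core (e : ⁅Q, S⁆ = Q) (h0 : Q ⊓ 𝒞(V) = ⊥) (hab : Q ≤ 𝒞(Q)) : Q = ⊥ := by
  by_contra hn
  have hA := h.hQ.norm
  have h1 : Q ⊓ 𝒞(S) = ⊥ := by
    have := (coprime_abelian_dp (abelian_iff.2 hab) h.SQ (copr h.sq h.hS.pi h.hQ.pi)).2.1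
    rwa [e, inf_eq_left.2 inf_le_left] at this
  have h2 : Q ⊓ 𝒞(A) = ⊥ := le_bot_iff.1
    (h1 ▸ le_inf inf_le_left ((inf_le_inf_left _ (cent_anti h.hB.le)).trans h.QB))
  have hdp := coprime_abelian_dp h.ab h.QV (copr h.qp h.hQ.pi h.hV.pi)
  have hle : ⁅V, Q⁆ ≤ V := commutator_le_left_of_norm h.QV
  let M : Subgroup X → Prop := fun K => (∃ v ∈ ⁅V, Q⁆, v ≠ 1 ∧ K = Q ⊓ 𝒞[v]) ∧
    ∀ R, (∃ v ∈ ⁅V, Q⁆, v ≠ 1 ∧ R = Q ⊓ 𝒞[v]) → K ≤ R → R = K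
  have m1 : ∀ K, M K → ¬ Q ≤ K := fun K ⟨⟨v, hv, v1, eK⟩, _⟩ e' => v1 (mem_bot.1 (hdp.2.1 ▸
    ⟨⟨hle hv, le_cent1_iff.1 (e'.trans (eK.le.trans inf_le_right))⟩, hv⟩))
  have m2 : ∀ K, M K → ∃ B', IsElem r 1 B' A ∧ ⁅Q, B'⁆ ≤ K := fun K hK => by
    obtain ⟨B', hB', h3⟩ : ∃ B', IsElem r 1 B' A ∧ ¬ Q ⊓ 𝒞(B') ≤ K := by_contra fun e' =>
      m1 K hK (h.gen h.hQ.le hA fun B' hB' => by_contra fun e'' => e' ⟨B', hB', e''⟩)
    obtain ⟨y, hy, hyK⟩ := SetLike.not_le_iff_exists.1 h3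
    obtain ⟨⟨v, hv, v1, eK⟩, hmax⟩ := hK
    have h4 := h.cent_comm hB' (Z := Q ⊓ 𝒞(B')) inf_le_left (h.com' hB' h.qp h.hQ h.hV
      ((h.le_up_sup hB'.le h.hQ.le hA).trans (by rw [h2, sup_bot_eq])) h.QV)
      (norm_of_cent (hab.trans (cent_anti inf_le_left))) (norm_inf hA (h.normC hB'.le))
    refine ⟨B', hB', (le_inf (commutator_le_left_of_norm (hB'.le.trans hA))
      (h4.trans (cent_le_cent1 (commutator_mem_commutator (hle hv) hy)))).trans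
        (hmax _ ⟨_, commutator_mem_commutator (hle hv) hy.1, fun e' => hyK ?_, rfl⟩ ?_).le⟩
    · exact eK ▸ ⟨hy.1, mem_cent1.2 (commutatorElement_eq_one_iff_mul_comm.1 e').symm⟩
    · rw [eK]
      refine le_inf inf_le_left fun k hk => mem_cent1.2 ?_
      have c1 : Commute k v := mem_cent1.1 hk.2
      have c2 : Commute k y := (hab hk.1 y hy.1).symm
      exact ((c1.mul_right c2).mul_right c1.inv_right).mul_right c2.inv_right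
  have m3 : ∀ K, M K → ∀ t ∈ S, M (cj t K) := fun K hK t ht => by
    have hW : S ≤ 𝒩(⁅V, Q⁆) := norm_commutator h.SV h.SQ
    have c : ∀ t ∈ S, ∀ R, (∃ v ∈ ⁅V, Q⁆, v ≠ 1 ∧ R = Q ⊓ 𝒞[v]) →
        ∃ v ∈ ⁅V, Q⁆, v ≠ 1 ∧ cj t R = Q ⊓ 𝒞[v] := fun t ht R ⟨v, hv, v1, eR⟩ =>
      ⟨t * v * t⁻¹, conj_mem_of_norm hW ht hv, by simpa using v1, by
        rw [eR, cj_inf, cj_cent1, cj_eq_of_mem_norm (h.SQ ht)]⟩
    refine ⟨c t ht K hK.1, fun R hR hle' => ?_⟩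
    rw [← hK.2 _ (c _ (inv_mem ht) R hR) (cj_le_iff.1 hle'), cj_cj_inv]
  obtain ⟨v, hv, v1⟩ := ne_bot_iff_exists.1 fun e' : ⁅V, Q⁆ = ⊥ =>
    hn (le_bot_iff.1 (h0 ▸ le_inf le_rfl (cent_symm (commutator_eq_bot_iff.1 e'))))
  obtain ⟨K, -, hK⟩ := exists_maximal_ge (fun R => ∃ v ∈ ⁅V, Q⁆, v ≠ 1 ∧ R = Q ⊓ 𝒞[v])
    ⟨v, hv, v1, rfl⟩
  have hKQ : K ≤ Q := by obtain ⟨⟨v, -, -, rfl⟩, -⟩ := hK; exact inf_le_left
  have nQ : ∀ U, U ≤ Q → Q ≤ 𝒩(U) := fun U hU => norm_of_cent (hab.trans (cent_anti hU))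
  obtain ⟨B₁, hB₁, h3⟩ := m2 K hK
  by_cases h4 : ∀ t ∈ S, ⁅Q, B₁⁆ ≤ cj t K
  · have h5 := (coreIn_le K S).trans hKQ
    exact m1 K hK ((h.key e hB₁ h5 (nQ _ h5) (le_norm_coreIn K S)
      (le_iInf fun t => h4 t t.2)).trans (coreIn_le K S))
  push Not at h4
  obtain ⟨t, ht, h4⟩ := h4
  obtain ⟨B₂, hB₂, h5⟩ := m2 _ (m3 K hK t ht)
  have h6 : ⁅Q, cj t⁻¹ B₂⁆ ≤ K := by
    rw [← cj_eq_of_mem_norm (h.SQ (inv_mem ht)), ← cj_commutator]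
    exact le_cj_iff.1 h5
  have d1 := le_quoPre_cent (nQ K hKQ) (norm_of_comm_le hKQ h3) h3
  have d2 := le_quoPre_cent (nQ K hKQ) (norm_of_comm_le hKQ h6) h6
  have d3 : B ≤ quoPre K 𝒞(H49.quo Q K) := fun b hb => by
    have hb' := h.hB.le hb
    rw [← h.sup_eq hB₁ hB₂ fun e' => h4 (e' ▸ h5)] at hb'
    obtain ⟨x, hx, y, hy, e'⟩ := (mem_sup_of_norm_right (hB₁.le.trans (h.normB hB₂.le))).1 hb'
    have s1 : y⁻¹ * t⁻¹ * y * t ∈ S :=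
      mul_mem (conj_mem_of_norm' h.hS.norm (hB₂.le hy) (inv_mem ht)) ht
    have s2 : b * (y⁻¹ * t⁻¹ * y * t) ∈ quoPre K 𝒞(H49.quo Q K) := by
      have := mul_mem (d1 hx) (d2 (conj_mem_cj.2 hy))
      rwa [show x * (t⁻¹ * y * t⁻¹⁻¹) = b * (y⁻¹ * t⁻¹ * y * t) by rw [e']; group] at this
    have s3 := pow_mem s2 (Nat.card S)
    rw [(show Commute b _ from h.SB s1 b hb).mul_pow, 
      orderOf_dvd_iff_pow_eq_one.1 (orderOf_dvd_natCard S s1), mul_one] at s3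
    exact zpowers_le.2 s3 (mem_zpowers_pow_iff.2
      ((h.cop h.hB.le h.hS.le).symm.coprime_dvd_right (orderOf_dvd_natCard B hb)))
  have h7 := comm_le_of_le (nQ K hKQ) (d3.trans (quoPre_le_norm _)) d3
  have h8 : ⁅Q, B⁆ ≤ Q := commutator_le_left_of_norm (h.hB.le.trans hA)
  exact m1 K hK ((h.key e h.hB h8 (nQ _ h8) (norm_commutator h.SQ (norm_of_cent h.SB))
    le_rfl).trans h7)

end TC

theorem te_aux (r s q p n : ℕ) : ∀ (X : Type u) [Group X] [Finite X] (A G B S Q V : Subgroup X),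
    Nat.card Q = n → TC r A G B S Q V s q p → ⁅Q, S⁆ ≤ 𝒞(V) := by
  induction n using Nat.strong_induction_on with
  | _ n ih =>
  intro X _ _ A G B S Q V hn h
  have hle : ⁅Q, S⁆ ≤ Q := commutator_le_left_of_norm h.SQ
  by_cases h0 : Q ⊓ 𝒞(V) = ⊥
  · have min : ∀ U, U < Q → A ≤ 𝒩(U) → S ≤ 𝒩(U) → ⁅U, S⁆ = ⊥ := fun U h1 h2 h3 =>
      le_bot_iff.1 (h0 ▸ le_inf ((commutator_le_left_of_norm h3).trans h1.le)
        (ih _ (hn ▸ card_lt_of_lt h1) X A G B S U V rfl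
          { h with hQ := iv_of_le h.hQ h1.le h2, SQ := h3, QV := h1.le.trans h.QV }))
    rcases hle.eq_or_lt with e | e
    · rw [e, h.core e h0 (h.abel e h0 fun U h1 h2 h3 => commutator_eq_bot_iff.1 (min U h1 h2 h3))]
      exact bot_le
    · rw [← coprime_comm_comm h.SQ (copr h.sq h.hS.pi h.hQ.pi) (Or.inl h.hS.sol),
        min _ e (norm_commutator h.hQ.norm h.hS.norm) (le_norm_commutator_right Q S)]
      exact bot_le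
  have hA : A ≤ 𝒩(Q ⊓ 𝒞(V)) := norm_inf h.hQ.norm (norm_cent h.hV.norm)
  have hQ : Q ≤ 𝒩(Q ⊓ 𝒞(V)) := norm_inf le_normalizer (norm_cent h.QV)
  have hS : S ≤ 𝒩(Q ⊓ 𝒞(V)) := norm_inf h.SQ (norm_cent h.SV)
  have hV : V ≤ 𝒩(Q ⊓ 𝒞(V)) := norm_of_cent (cent_symm inf_le_right)
  have h1 := h.toH2.sub (sup_le (sup_le h.hV.le h.hQ.le) h.hS.le)
    (norm_sup (norm_sup h.hV.norm h.hQ.norm) h.hS.norm)
  have hQ' : Q ≤ V ⊔ Q ⊔ S := le_sup_right.trans le_sup_left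
  have hN : Q ⊓ 𝒞(V) ≤ V ⊔ Q ⊔ S := inf_le_left.trans hQ'
  have h2 := ih _ (hn ▸ card_quo_lt hQ (by rwa [inf_eq_left.2 inf_le_left])) _ _ _ _ _ _ _ rfl
    ⟨h1.quo (solvable_sup (solvable_sup h.hV.sol h.hQ.sol (Or.inr h.QV)) h.hS.sol
      (Or.inr (norm_sup h.SV h.SQ))) hN (sup_le (sup_le hV hQ) hS) hA, h1.elem_quo h.hB hN hA,
      h.sq, h.qp, iv_quo (iv_res h.hS le_sup_right) _, iv_quo (iv_res h.hQ hQ') _,
      iv_quo (iv_res h.hV (le_sup_left.trans le_sup_left)) _, quo_cent _ h.SB,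
      by rw [← quo_commutator hS hA, h.SA], quo_norm _ h.SQ, quo_norm _ h.SV, quo_norm _ h.QV,
      abelian_quo h.ab _⟩
  rw [← quo_commutator hQ hS, quo_cent_iff (hle.trans hQ) hV] at h2
  exact commutator_eq_bot_iff.1 (le_bot_iff.1 (disj h.qp h.hQ.pi h.hV.pi ▸
    le_inf (h2.trans inf_le_left) (commutator_le_right_of_norm (hle.trans h.QV))))

theorem H2.te (h : H2 r A G) (sq : s ≠ q) (qp : q ≠ p) (hS : Iv A G {s} S) (hQ : Iv A G {q} Q)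
    (hV : Iv A G {p} V) (SA : ⁅S, A⁆ = S) (SQ : S ≤ 𝒩(Q)) (SV : S ≤ 𝒩(V)) (QV : Q ≤ 𝒩(V)) :
    ⁅Q, S⁆ ≤ 𝒞(V) := by
  have nQ : Q ≤ 𝒩(Q ⊓ 𝒞(V)) := norm_inf le_normalizer (norm_cent QV)
  have nS : S ≤ 𝒩(Q ⊓ 𝒞(V)) := norm_inf SQ (norm_cent SV)
  refine (comm_le_of_le nQ nS (SA.ge.trans (h.gen_up hS.le hS.norm fun B hB => ?_))).trans
    inf_le_right
  have hu : up A S B ≤ S := (h.up_le hB.le hS.norm).trans inf_le_left
  have hle : ⁅Q, up A S B⁆ ≤ Q := commutator_le_left_of_norm (hu.trans SQ)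
  refine le_quoPre_cent nQ (hu.trans nS) (le_inf hle ?_)
  have hA : A ≤ 𝒩(⁅V, V⁆) := norm_commutator hV.norm hV.norm
  have n1 : Q ≤ 𝒩(⁅V, V⁆) := norm_commutator QV QV
  have n2 : S ≤ 𝒩(⁅V, V⁆) := norm_commutator SV SV
  have h1 := h.sub (sup_le (sup_le hV.le hQ.le) hS.le) (norm_sup (norm_sup hV.norm hQ.norm) hS.norm)
  have hV' : V ≤ V ⊔ Q ⊔ S := le_sup_left.trans le_sup_left
  have hN : ⁅V, V⁆ ≤ V ⊔ Q ⊔ S := der_le.trans hV'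
  have h2 := te_aux r s q p _ _ _ _ _ _ _ _ rfl
    ⟨h1.quo (solvable_sup (solvable_sup hV.sol hQ.sol (Or.inr QV)) hS.sol
      (Or.inr (norm_sup SV SQ))) hN (sup_le (sup_le norm_der n1) n2) hA, h1.elem_quo hB hN hA,
      sq, qp, iv_quo (iv_res (h.up_iv hB.le hS) (hu.trans le_sup_right)) _,
      iv_quo (iv_res hQ (le_sup_right.trans le_sup_left)) _, iv_quo (iv_res hV hV') _,
      quo_cent _ ((h.up_le hB.le hS.norm).trans inf_le_right),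
      by rw [← quo_commutator (hu.trans n2) hA, h.up_comm hB.le hS], quo_norm _ (hu.trans SQ),
      quo_norm _ (hu.trans SV), quo_norm _ QV, (quo_abelian_iff norm_der).2 le_rfl⟩
  rw [← quo_commutator n1 (hu.trans n2), quo_cent_iff (hle.trans n1) norm_der,
    commutator_comm] at h2
  exact cent_of_der hV.pi (hle.trans QV) (copr qp (hQ.pi.of_le hle) hV.pi) h2

end Cfsg.Agent.PET
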