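/-
Rank two: the structure of solvable groups.
-/
import Cfsg.Agent.PET.TE
import Cfsg.Agent.H45.TwoB

set_option autoImplicit false
set_option linter.unusedSectionVars false

namespace Cfsg.Agent.PET

open Subgroup Cfsg.Agent.H49 Cfsg.Agent.H45 Cfsg.Agent.H59
open scoped commutatorElement

universe u

variable {X : Type u} [Group X] [Finite X] {r p q s : ℕ}
  {A B G K P Q R S T U : Subgroup X}

namespace H2

variable (h : H2 r A G) (hs : Group.IsSolvable G)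
include h hs

theorem ss (sq : s ≠ q) (hS : Iv A G {s} S) (hQ : Iv A G {q} Q) (SA : ⁅S, A⁆ = S)
    (SQ : S ≤ 𝒩(Q)) : ⁅Q, S⁆ ≤ piCoreOf {q} G := by
  have hle : ⁅Q, S⁆ ≤ Q := commutator_le_left_of_norm SQ
  refine le_core_of_quo hs (hle.trans hQ.le) (hQ.pi.of_le hle) fun p _ hpq => ?_
  have hG := le_norm_piCoreOf {q} G
  have hA := norm_piCoreOf {q} h.norm
  have h1 := h.quo hs (piCoreOf_le {q} G) hG hA
  rw [quo_commutator (hQ.le.trans hG) (hS.le.trans hG)]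
  exact h1.te sq hpq.symm (iv_quo hS _) (iv_quo hQ _) (iv_core le_rfl h1.norm {p})
    (by rw [← quo_commutator (hS.le.trans hG) hA, SA]) (quo_norm _ SQ)
    ((iv_quo hS _).le.trans (le_norm_piCoreOf _ _)) ((iv_quo hQ _).le.trans (le_norm_piCoreOf _ _))

theorem pl0 (h0 : piCoreOf {p}ᶜ G = ⊥) (hP : Sy A G p P) : ⁅P, A⁆ ≤ piCoreOf {p} G := by
  have hle : ⁅P, A⁆ ≤ P := commutator_le_left_of_norm hP.norm
  refine le_core_of_quo hs (hle.trans hP.le) (hP.pi.of_le hle) fun q hq hqp => ?_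
  obtain ⟨Q, hQ⟩ := h.syl q hq
  have hD := iv_core le_rfl h.norm {p}
  have hG := le_norm_piCoreOf {p} G
  set D := piCoreOf {p} G
  set U := quoPre D (piCoreOf {q} (H49.quo G D)) with hU
  have hUG : U ≤ G := (quoPre_le_iff hD.le hG).2 (piCoreOf_le _ _)
  have hAU : A ≤ 𝒩(U) := norm_quoPre hD.norm (norm_piCoreOf _ (quo_norm D h.norm))
  have hQ1 := hQ.inf hAU
  have h1 : H49.quo (Q ⊓ U) D = piCoreOf {q} (H49.quo G D) := by
    have := (h.sy_inf hQ hUG hAU).quo (N := D) (hUG.trans hG)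
    rw [hU, quo_quoPre] at this
    exact this.eq_self (piCoreOf_pi _ _)
  have h2 : D ⊔ (Q ⊓ U) = U := by
    rw [sup_comm, ← quoPre_quo (hQ1.le.trans hG), h1]
  have h3 := coprime_norm_sup (hQ1.le.trans hG) (copr hqp hQ1.pi hD.pi) (Or.inl hQ1.sol)
    (hP.max D hD) (hP.le.trans hG)
    (h2.symm ▸ hP.le.trans (norm_quoPre hG (le_norm_piCoreOf _ _)))
  have hN := hP.inf (norm_norm hQ1.norm)
  have hS := iv_comm hN hN.norm le_normalizer
  have hSN : ⁅P ⊓ 𝒩(Q ⊓ U), A⁆ ≤ P ⊓ 𝒩(Q ⊓ U) := commutator_le_left_of_norm hN.norm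
  have h4 : Q ⊓ U ≤ 𝒞(⁅P ⊓ 𝒩(Q ⊓ U), A⁆) := commutator_eq_bot_iff.1 (le_bot_iff.1
    ((h.ss hs hqp.symm hS hQ1 (h.comm_comm le_rfl hN.le hN.norm) (hSN.trans inf_le_right)).trans
      (h0 ▸ piCoreOf_mono_pi (by simpa using hqp.symm) G)))
  have h5 : ⁅P, A⁆ ≤ D ⊔ ⁅P ⊓ 𝒩(Q ⊓ U), A⁆ :=
    (commutator_mono h3.sup_eq.ge le_rfl).trans (H50.commutator_sup_left_le
      (norm_sup hD.norm hS.norm) (norm_of_le le_sup_left)
      (norm_sup (hN.le.trans hG) (le_norm_commutator_left _ _))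
      ((commutator_le_left_of_norm hD.norm).trans le_sup_left) le_sup_right)
  rw [← h1]
  refine (quo_mono D h5).trans ?_
  rw [quo_ker_sup (hS.le.trans hG)]
  exact quo_cent D (cent_symm h4)

theorem pl' (hp : p.Prime) (hU : Iv A G {p} U) : ⁅U, A⁆ ≤ pPrimePCoreOf p G := by
  obtain ⟨P, hP⟩ := h.syl p hp
  have hN := piCoreOf_le {p}ᶜ G
  have hG := le_norm_piCoreOf {p}ᶜ G
  have hA := norm_piCoreOf {p}ᶜ h.norm
  refine (commutator_mono (hP.max U hU) le_rfl).trans ?_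
  rw [pPrimePCoreOf_eq_quoPre hp, ← quo_le_iff
    (((commutator_le_left_of_norm hP.norm).trans hP.le).trans hG),
    quo_commutator (hP.le.trans hG) hA]
  exact (h.quo hs hN hG hA).pl0 (solvable_quo hs _) (piCoreOf_quo_piCoreOf _ _)
    (h.sy_quo hP hN hG hA)

theorem le_core (hp : p.Prime) (hU : Iv A G {p} U) (hR : R ≤ ⁅U, A⁆)
    (hc : R ≤ 𝒞(piCoreOf {p}ᶜ G)) : R ≤ piCoreOf {p} G :=
  le_pcore_of_cent_pcore' hp (hR.trans (h.pl' hs hp hU))
    (hU.pi.of_le (hR.trans (commutator_le_left_of_norm hU.norm))) hc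

theorem pl (hP : Sy A G p P) (e : ⁅P, A⁆ = P) : PLengthLE p 1 G :=
  (plength1_iff_index hP.prime).2
    ((hP.syl.index_of_le (e.ge.trans (h.pl' hs hP.prime hP.toIv))).not_dvd hP.prime rfl)

theorem norm_w (hT : Sy A G 2 T) (p : ℕ) : G ≤ 𝒩(⁅piCoreOf {p} G, T⁆) := by
  have hG := le_norm_piCoreOf {p} G
  have e := h.two_comm hT.toIv
  refine (plength1_frattini Nat.prime_two (h.pl hs hT e) hT.syl).sup_eq.ge.trans (sup_le
    (le_of_sylowOf_le fun q hq hd => ?_) (norm_commutator (inf_le_left.trans hG) inf_le_right))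
  have hO := iv_core le_rfl h.norm {2}ᶜ
  have hTO := hT.le.trans (le_norm_piCoreOf {2}ᶜ G)
  have q2 : 2 ≠ q := fun e => hO.pi q hq hd e.symm
  obtain ⟨Q, hQ, hn⟩ := coprime_hall_exists (sup_le hTO hO.norm)
    (coprime_sup_right (Or.inr hT.norm) (hO.pi.coprime' hT.pi) (h.cop le_rfl hO.le).symm).symm
    (solvable_sup hT.sol (h.solA le_rfl) (Or.inr hT.norm)) (solvable_of_le hs hO.le) {q}
  have hQ' : Iv A G {q} Q := ⟨hQ.le.trans hO.le, le_sup_right.trans hn, hQ.pi⟩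
  have hTQ := le_sup_left.trans hn
  refine ⟨Q, hQ, (coprime_comm_sup_cent hTQ (copr q2 hT.pi hQ.pi) (Or.inl hT.sol)).ge.trans
    (sup_le ((h.ss hs q2 hT.toIv hQ' e hTQ).trans ?_)
      (norm_commutator (inf_le_left.trans (hQ'.le.trans hG)) (norm_of_cent inf_le_right)))⟩
  by_cases e : q = p
  · rw [e]; exact le_norm_commutator_left _ _
  · exact norm_of_cent (core_cent' e le_rfl (commutator_le_left_of_norm (hT.le.trans hG)))

theorem foc (hP : Sy A G p P) : P ⊓ ⁅G, G⁆ ≤ ⁅P, P⁆ ⊔ ⁅P, A⁆ := by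
  have hp := hP.prime
  have hO := iv_core le_rfl h.norm {p}ᶜ
  have hG := le_norm_piCoreOf {p}ᶜ G
  have hD := hP.inf (norm_pPrimePCoreOf hp h.norm)
  have hPD : P ≤ 𝒩(P ⊓ pPrimePCoreOf p G) :=
    norm_inf le_normalizer (hP.le.trans (le_norm_pPrimePCoreOf p G))
  have h1 := coprime_norm_sup (hD.le.trans hG) (hD.pi.coprime hO.pi) (Or.inl hD.sol) hO.le hG
    (by rw [pPrimePCoreOf_eq_sup hp (hP.syl.inf_normal (pPrimePCoreOf_le p G)
      (le_norm_pPrimePCoreOf p G))]; exact le_norm_pPrimePCoreOf p G)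
  have hPA : ⁅P, A⁆ ≤ P ⊓ pPrimePCoreOf p G :=
    le_inf (commutator_le_left_of_norm hP.norm) (h.pl' hs hp hP.toIv)
  set D := P ⊓ pPrimePCoreOf p G
  have hPH : P ≤ G ⊓ 𝒩(D) := le_inf hP.le hPD
  have hAH := norm_inf h.norm (norm_norm hD.norm)
  obtain ⟨K, hK, hAK⟩ := h.exists_hall inf_le_left hAH (solvable_of_le hs inf_le_left) {p}ᶜ
  have hKD : K ≤ 𝒩(D) := hK.le.trans inf_le_right
  have hK' : Iv A G {p}ᶜ K := ⟨hK.le.trans inf_le_left, hAK, hK.pi⟩
  have hY := iv_comm hD hKD hAK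
  have hYP : ⁅D, K⁆ ≤ P := (commutator_le_left_of_norm hKD).trans inf_le_left
  have hKY : K ≤ 𝒩(⁅D, K⁆) := le_norm_commutator_right D K
  have h2 : IsProd (⁅D, K⁆ ⊔ K) P (G ⊓ 𝒩(D)) := by
    have := ((hP.syl.sub hPH inf_le_left).isProd hK).symm
    refine ⟨sup_le (hYP.trans hPH) hK.le, hPH, fun m hm => ?_⟩
    obtain ⟨a, ha, b, hb, e⟩ := this.2.2 m hm
    exact ⟨a, mem_sup_right ha, b, hb, e⟩
  have h3 : P ≤ 𝒩(⁅D, K⁆ ⊔ K) := by
    refine (h.prod le_rfl hP.le hP.norm).sup_eq.ge.trans (sup_le (hPA.trans ?_) ?_)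
    · rw [← le_antisymm (ncl_le_comm_sup K D) (sup_le (comm_le_ncl K D) (le_ncl K D))]
      exact le_norm_ncl K D
    · have := (le_inf (inf_le_inf_right _ hP.le) (inf_le_left.trans (norm_of_le hPH))).trans
        (h.cent_norm_hall inf_le_left hK hAK)
      exact norm_sup (norm_commutator (inf_le_left.trans hPD) this) this
  refine (le_inf ((pprod_focal_coprime h1 (inf_le_left.trans hG) hPH (hP.pi.coprime hO.pi)).trans
    (der_le_sup_der h2 h3)) inf_le_left).trans ?_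
  rw [modular_right (Or.inr (der_le.trans h3)) der_le, modular_left (Or.inr hKY) hYP,
    hK.pi.inf_eq_bot' hP.pi, sup_bot_eq]
  refine sup_le ((h.prod le_rfl hY.le hY.norm).sup_eq.ge.trans (sup_le
    ((commutator_mono hYP le_rfl).trans le_sup_right) (le_trans ?_ le_sup_left))) le_sup_left
  have h4 := coprime_comm_comm hKD (hK.pi.coprime' hD.pi) (Or.inr hD.sol)
  exact ((le_inf inf_le_left (h.cent_le hY hK' hKY)).trans (coprime_der1_sdprod
    ⟨rfl, hY.pi.inf_eq_bot hK.pi, hKY⟩ (hK.pi.coprime' hY.pi) hY.sol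
    (h4.ge.trans (commutator_mono le_sup_left le_sup_right))).2).trans (der_mono hYP)

end H2

end Cfsg.Agent.PET
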